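import Mathlib
import Cfsg.Agent.Lib.LieM.HKK
import Cfsg.Agent.Lib.Coprime.Action

/-! A group of order prime to 39 acted on by the Frobenius group `13:3`, the kernel without fixed
points and the fixed points of the complement of exponent two, has exponent dividing four. -/

set_option autoImplicit false

open scoped TensorProduct commutatorElement
open Subgroup

namespace CfsgLib.Crit13

open CfsgLib.LieM

universe u

theorem indep13 : ∀ a b : ZMod 13, a ≠ 0 → b ≠ 0 → a + b ≠ 0 → b ≠ 3 * a → b ≠ 9 * a →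
    a + 3 * b ≠ a + b ∧ a + 3 * (3 * b) ≠ a + b ∧ 3 * a + b ≠ a + b ∧ 3 * a + 3 * b ≠ a + b ∧
      3 * a + 3 * (3 * b) ≠ a + b ∧ 3 * (3 * a) + b ≠ a + b ∧ 3 * (3 * a) + 3 * b ≠ a + b ∧
      3 * (3 * a) + 3 * (3 * b) ≠ a + b := by
  decide +kernel

theorem three13 : ∀ a : ZMod 13, a ≠ 0 → 3 * a ≠ a ∧ 3 * (3 * a) ≠ a := by decide

theorem comb13 : ∀ a b d : ZMod 13, (a = 0 ∨ b ≠ 3 * a ∧ b ≠ 9 * a) ∨
    (a + b = 0 ∨ d ≠ 3 * (a + b) ∧ d ≠ 9 * (a + b)) ∨
    (((b = 0 ∨ d ≠ 3 * b ∧ d ≠ 9 * b) ∨ (a = 0 ∨ b + d ≠ 3 * a ∧ b + d ≠ 9 * a)) ∧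
      ((a = 0 ∨ d ≠ 3 * a ∧ d ≠ 9 * a) ∨ (b = 0 ∨ a + d ≠ 3 * b ∧ a + d ≠ 9 * b))) := by
  decide +kernel

theorem graded13 {M : Type*} [LieRing M] (F : ZMod 13 → AddSubgroup M) (Ψ : M →+ M)
    (π : ZMod 13 → M →+ M) (hF : ∀ a b, ∀ x ∈ F a, ∀ y ∈ F b, ⁅x, y⁆ ∈ F (a + b))
    (h0 : ∀ x ∈ F 0, x = 0) (hΨ : ∀ a, ∀ x ∈ F a, Ψ x ∈ F (3 * a))
    (hπ1 : ∀ a, ∀ x ∈ F a, π a x = 0 → x = 0) (hπ2 : ∀ a b, b ≠ a → ∀ x ∈ F b, π a x = 0)
    (hN : ∀ x y : M, ⁅x + Ψ x + Ψ (Ψ x), y + Ψ y + Ψ (Ψ y)⁆ = 0) :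
    ∀ a b d, ∀ x ∈ F a, ∀ y ∈ F b, ∀ z ∈ F d, ⁅⁅x, y⁆, z⁆ = 0 := by
  have key : ∀ a b : ZMod 13, (a = 0 ∨ b ≠ 3 * a ∧ b ≠ 9 * a) → ∀ x ∈ F a, ∀ y ∈ F b,
      ⁅x, y⁆ = 0 := by
    intro a b h x hx y hy
    by_cases ha : a = 0
    · subst ha; rw [h0 x hx, zero_lie]
    by_cases hb : b = 0
    · subst hb; rw [h0 y hy, lie_zero]
    by_cases hab : a + b = 0
    · exact h0 _ (hab ▸ hF a b x hx y hy)
    obtain ⟨h3, h9⟩ := h.resolve_left ha
    obtain ⟨e1, e2, e3, e4, e5, e6, e7, e8⟩ := indep13 a b ha hb hab h3 h9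
    have x1 := hΨ _ _ hx
    have x2 := hΨ _ _ x1
    have y1 := hΨ _ _ hy
    have y2 := hΨ _ _ y1
    refine hπ1 _ _ (hF a b x hx y hy) ?_
    have := congrArg (π (a + b)) (hN x y)
    simp only [add_lie, lie_add, map_add, map_zero] at this
    rwa [hπ2 _ _ e1 _ (hF _ _ _ hx _ y1), hπ2 _ _ e2 _ (hF _ _ _ hx _ y2),
      hπ2 _ _ e3 _ (hF _ _ _ x1 _ hy), hπ2 _ _ e4 _ (hF _ _ _ x1 _ y1),
      hπ2 _ _ e5 _ (hF _ _ _ x1 _ y2), hπ2 _ _ e6 _ (hF _ _ _ x2 _ hy),
      hπ2 _ _ e7 _ (hF _ _ _ x2 _ y1), hπ2 _ _ e8 _ (hF _ _ _ x2 _ y2), add_zero, add_zero,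
      add_zero, add_zero, add_zero, add_zero] at this
  intro a b d x hx y hy z hz
  rcases comb13 a b d with h | h | ⟨h1, h2⟩
  · rw [key a b h x hx y hy, zero_lie]
  · exact key _ _ h _ (hF _ _ _ hx _ hy) _ hz
  · have e1 : ⁅x, ⁅y, z⁆⁆ = 0 := by
      rcases h1 with h | h
      · rw [key _ _ h y hy z hz, lie_zero]
      · exact key _ _ h _ hx _ (hF _ _ _ hy _ hz)
    have e2 : ⁅y, ⁅x, z⁆⁆ = 0 := by
      rcases h2 with h | h
      · rw [key _ _ h x hx z hz, lie_zero]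
      · exact key _ _ h _ hy _ (hF _ _ _ hx _ hz)
    rw [lie_lie, e1, e2, sub_zero]

theorem lie13_aux {R : Type} [CommRing R] {L : Type u} [LieRing L] [LieAlgebra R L]
    (φ ψ : L →ₗ[R] L) (hφ : ∀ x y, φ ⁅x, y⁆ = ⁅φ x, φ y⁆) (hφp : ∀ x, φ^[13] x = x)
    (hfix : ∀ x, φ x = x → x = 0) (hrel : ∀ x, φ (ψ x) = ψ (φ^[3] x)) {K : ℕ}
    (hK : K.Coprime 13) (hKL : ∀ x : L, K • x = 0)
    (hN : ∀ x y : L, ⁅x + ψ x + ψ (ψ x), y + ψ y + ψ (ψ y)⁆ = 0)
    (h2 : ∀ x : L, 2 • (x + ψ x + ψ (ψ x)) = 0)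
    {A : Type} [CommRing A] [Algebra R A] [Module.Flat R A]
    (f : A →ₗ[R] R) (w : ZMod 13 → A) (hf : f 1 = 1) (hw0 : w 0 = 1)
    (hw : ∀ i j, w (i + j) = w i * w j) (hws : ∑ i, w i = 0) :
    (∀ x y z : L, ⁅⁅x, y⁆, z⁆ = 0) ∧ ∀ x : L, 2 • x = 0 := by
  haveI : Fact (Nat.Prime 13) := ⟨by norm_num⟩
  let Φ : Module.End A (A ⊗[R] L) := LinearMap.baseChange A φ
  let Ψ : Module.End A (A ⊗[R] L) := LinearMap.baseChange A ψ
  have hΦt : ∀ a x, Φ (a ⊗ₜ x) = a ⊗ₜ φ x := fun a x => rfl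
  have hΨt : ∀ a x, Ψ (a ⊗ₜ x) = a ⊗ₜ ψ x := fun a x => rfl
  have hΦ : ∀ x y : A ⊗[R] L, Φ ⁅x, y⁆ = ⁅Φ x, Φ y⁆ := fun x y => by
    induction x with
    | zero => simp
    | add x x' h h' => simp only [add_lie, map_add, h, h']
    | tmul a x =>
      induction y with
      | zero => simp
      | add y y' h h' => simp only [lie_add, map_add, h, h']
      | tmul b y => simp only [LieAlgebra.ExtendScalars.bracket_tmul, hΦt, hφ]
  have hΦk : ∀ k a x, (Φ ^ k) (a ⊗ₜ x) = a ⊗ₜ φ^[k] x := fun k => by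
    induction k with
    | zero => intro a x; rfl
    | succ k ih => intro a x; rw [pow_succ, Module.End.mul_apply, hΦt, ih]; rfl
  have hΦp : Φ ^ 13 = 1 := by
    refine LinearMap.ext fun x => ?_
    induction x with
    | zero => simp
    | add x x' h h' => simp only [map_add, h, h']
    | tmul a x => rw [hΦk, hφp]; rfl
  have hRel : ∀ x, Φ (Ψ x) = Ψ ((Φ ^ 3) x) := fun x => by
    induction x with
    | zero => simp
    | add x x' h h' => simp only [map_add, h, h']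
    | tmul a x => rw [hΦk, hΨt, hΨt, hΦt, hrel]
  have hFix : ∀ x, Φ x = x → x = 0 := fun x hx => by
    have h1 := Module.Flat.lTensor_exact A
      (LinearMap.exact_subtype_ker_map (φ - LinearMap.id))
    have h2 : (φ - LinearMap.id).lTensor A x = 0 := by
      rw [LinearMap.lTensor_sub, LinearMap.lTensor_id, LinearMap.sub_apply, sub_eq_zero]
      exact hx
    obtain ⟨y, rfl⟩ := (h1 x).mp h2
    clear h2 hx
    induction y with
    | zero => simp
    | add y y' h h' => rw [map_add, h, h', add_zero]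
    | tmul a y =>
      rw [LinearMap.lTensor_tmul, Submodule.subtype_apply, hfix _ (sub_eq_zero.mp y.2),
        TensorProduct.tmul_zero]
  have hKM : ∀ x : A ⊗[R] L, K • x = 0 := fun x => by
    induction x with
    | zero => simp
    | add x x' h h' => rw [smul_add, h, h', add_zero]
    | tmul a x => rw [← TensorProduct.tmul_smul, hKL, TensorProduct.tmul_zero]
  have h13 : ∀ x : A ⊗[R] L, 13 • x = 0 → x = 0 := fun x hx => by
    rw [← AddMonoid.addOrderOf_eq_one_iff]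
    exact Nat.eq_one_of_dvd_coprimes hK (addOrderOf_dvd_of_nsmul_eq_zero (hKM x))
      (addOrderOf_dvd_of_nsmul_eq_zero hx)
  have hNt : ∀ (a : A) (x : L), a ⊗ₜ[R] x + Ψ (a ⊗ₜ x) + Ψ (Ψ (a ⊗ₜ x)) =
      a ⊗ₜ (x + ψ x + ψ (ψ x)) := fun a x => by
    rw [hΨt, hΨt, TensorProduct.tmul_add, TensorProduct.tmul_add]
  have hadd : ∀ x x' : A ⊗[R] L, x + x' + Ψ (x + x') + Ψ (Ψ (x + x')) =
      (x + Ψ x + Ψ (Ψ x)) + (x' + Ψ x' + Ψ (Ψ x')) := fun x x' => by
    simp only [map_add]; abel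
  have hNM : ∀ x y : A ⊗[R] L, ⁅x + Ψ x + Ψ (Ψ x), y + Ψ y + Ψ (Ψ y)⁆ = 0 := fun x y => by
    induction x with
    | zero => simp
    | add x x' h h' => rw [hadd, add_lie, h, h', add_zero]
    | tmul a x =>
      induction y with
      | zero => simp
      | add y y' h h' => rw [hadd y y', lie_add, h, h', add_zero]
      | tmul b y =>
        rw [hNt, hNt, LieAlgebra.ExtendScalars.bracket_tmul, hN, TensorProduct.tmul_zero]
  have h2M : ∀ x : A ⊗[R] L, 2 • (x + Ψ x + Ψ (Ψ x)) = 0 := fun x => by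
    induction x with
    | zero => simp
    | add x x' h h' => rw [hadd, smul_add, h, h', add_zero]
    | tmul a x => rw [hNt, ← TensorProduct.tmul_smul, h2, TensorProduct.tmul_zero]
  let F : ZMod 13 → AddSubgroup (A ⊗[R] L) := fun i =>
    { carrier := {e | Φ e = w i • e}
      add_mem' := fun {e e'} he he' => by
        change Φ (e + e') = _
        rw [map_add, he, he', smul_add]
      zero_mem' := by simp
      neg_mem' := fun {e} he => by
        change Φ (-e) = _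
        rw [map_neg, he, smul_neg] }
  have hFk : ∀ i, ∀ e ∈ F i, ∀ k : ℕ, (Φ ^ k) e = w (k * i) • e := fun i e he k => by
    induction k with
    | zero => simp [hw0]
    | succ k ih =>
      rw [pow_succ', Module.End.mul_apply, ih, map_smul, he, smul_smul, ← hw]
      congr 2
      push_cast
      ring
  let π : ZMod 13 → Module.End A (A ⊗[R] L) := fun i => ∑ s : ZMod 13, w (-(i * s)) • Φ ^ s.val
  have hπ : ∀ i x, π i x = ∑ s : ZMod 13, w (-(i * s)) • (Φ ^ s.val) x := fun i x => by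
    simp only [π, LinearMap.sum_apply, LinearMap.smul_apply]
  have hsum : ∀ t : ZMod 13, t ≠ 0 → ∑ s : ZMod 13, w (s * t) = 0 := fun t ht => by
    rw [← hws, ← Equiv.sum_comp (Equiv.mulRight₀ t ht) w]
    simp
  have hπF : ∀ i j, ∀ x ∈ F j, π i x = (∑ s : ZMod 13, w (s * (j - i))) • x := fun i j x hx => by
    rw [hπ, Finset.sum_smul]
    refine Finset.sum_congr rfl fun s _ => ?_
    rw [hFk j x hx, smul_smul, ← hw, ZMod.natCast_zmod_val]
    congr 2
    ring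
  have hπ1 : ∀ a, ∀ x ∈ F a, π a x = 0 → x = 0 := fun a x hx h => by
    rw [hπF a a x hx] at h
    refine h13 x ?_
    simpa [hw0, ofNat_smul_eq_nsmul] using h
  have hπ2 : ∀ a b, b ≠ a → ∀ x ∈ F b, π a x = 0 := fun a b hab x hx => by
    rw [hπF a b x hx, hsum _ (sub_ne_zero.2 hab), zero_smul]
  have hπm : ∀ i x, π i x ∈ F i := fun i x => by
    have h1 : ∀ s : ZMod 13, Φ ((Φ ^ s.val) x) = (Φ ^ (s + 1).val) x := fun s => by
      rw [ZMod.val_add, ← pow_eq_pow_mod _ hΦp, ZMod.val_one, pow_succ', Module.End.mul_apply]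
    change Φ (π i x) = w i • π i x
    rw [hπ, map_sum, Finset.smul_sum,
      ← Equiv.sum_comp (Equiv.addRight 1) fun s => w i • w (-(i * s)) • (Φ ^ s.val) x]
    refine Finset.sum_congr rfl fun s _ => ?_
    rw [map_smul, h1, Equiv.coe_addRight, smul_smul, ← hw]
    congr 2
    ring
  have hπs : ∀ x, ∑ i, π i x = 13 • x := fun x => by
    simp only [hπ]
    rw [Finset.sum_comm, Finset.sum_eq_single 0]
    · simp [hw0]
    · intro s _ hs
      rw [← Finset.sum_smul]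
      have := hsum (-s) (neg_ne_zero.mpr hs)
      simp only [mul_neg] at this
      rw [this, zero_smul]
    · simp
  have hΨF : ∀ a, ∀ x ∈ F a, Ψ x ∈ F (3 * a) := fun a x hx => by
    change Φ (Ψ x) = _
    rw [hRel, hFk a x hx, map_smul]
    rfl
  have h0 : ∀ x ∈ F 0, x = 0 := fun x hx => hFix x (by
    have : Φ x = w 0 • x := hx
    rwa [hw0, one_smul] at this)
  have hG := graded13 F Ψ.toAddMonoidHom (fun i => (π i).toAddMonoidHom) (fun a b x hx y hy => by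
    change Φ ⁅x, y⁆ = _
    rw [hΦ, hx, hy, smul_lie, lie_smul, hw, mul_smul]) h0 hΨF hπ1 hπ2 hNM
  have back : ∀ x : L, (1 : A) ⊗ₜ[R] x = 0 → x = 0 := fun x h => by
    have h2 := congrArg (fun z => TensorProduct.lid R L (f.rTensor L z)) h
    simpa [hf] using h2
  refine ⟨fun x y z => back _ ?_, fun x => back _ ?_⟩
  · have : ∀ x y z : A ⊗[R] L, ⁅⁅x, y⁆, z⁆ = 0 := fun x y z => by
      refine h13 _ (h13 _ (h13 _ ?_))
      have e : 13 • 13 • 13 • ⁅⁅x, y⁆, z⁆ = ⁅⁅13 • x, 13 • y⁆, 13 • z⁆ := by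
        rw [lie_nsmul, lie_nsmul, nsmul_lie, nsmul_lie, nsmul_lie]
      rw [e, ← hπs, ← hπs, ← hπs]
      simp only [sum_lie, lie_sum]
      refine Finset.sum_eq_zero fun d _ => Finset.sum_eq_zero fun b _ =>
        Finset.sum_eq_zero fun a _ => hG _ _ _ _ (hπm _ _) _ (hπm _ _) _ (hπm _ _)
    have h := this (1 ⊗ₜ x) (1 ⊗ₜ y) (1 ⊗ₜ z)
    rwa [LieAlgebra.ExtendScalars.bracket_tmul, LieAlgebra.ExtendScalars.bracket_tmul, one_mul,
      one_mul] at h
  · have h1 : ∀ a, ∀ x ∈ F a, 2 • x = 0 := fun a x hx => by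
      by_cases ha : a = 0
      · subst ha; rw [h0 x hx, smul_zero]
      have e := three13 a ha
      refine hπ1 a _ (nsmul_mem hx 2) ?_
      have := congrArg (π a) (h2M x)
      rwa [map_nsmul, map_add, map_add, hπ2 _ _ e.1 _ (hΨF _ _ hx),
        hπ2 _ _ e.2 _ (hΨF _ _ (hΨF _ _ hx)), add_zero, add_zero, map_zero, ← map_nsmul] at this
    rw [TensorProduct.tmul_smul]
    refine h13 _ ?_
    rw [smul_comm, ← hπs, Finset.smul_sum]
    exact Finset.sum_eq_zero fun a _ => h1 a _ (hπm _ _)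

theorem lie13 {L : Type u} [LieRing L] (φ ψ : L →+ L) (hφ : ∀ x y, φ ⁅x, y⁆ = ⁅φ x, φ y⁆)
    (hφp : ∀ x, φ^[13] x = x) (hfix : ∀ x, φ x = x → x = 0) (hrel : ∀ x, φ (ψ x) = ψ (φ^[3] x))
    {K : ℕ} (hK : K.Coprime 13) (hKL : ∀ x : L, K • x = 0)
    (hN : ∀ x y : L, ⁅x + ψ x + ψ (ψ x), y + ψ y + ψ (ψ y)⁆ = 0)
    (h2 : ∀ x : L, 2 • (x + ψ x + ψ (ψ x)) = 0) :
    (∀ x y z : L, ⁅⁅x, y⁆, z⁆ = 0) ∧ ∀ x : L, 2 • x = 0 := by
  haveI : Fact (Nat.Prime 13) := ⟨by norm_num⟩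
  obtain ⟨A, _, h, f, w, hf, hw0, hw, hws⟩ := exists_cyclotomic_ring 13
  exact @lie13_aux ℤ _ L _ _ φ.toIntLinearMap ψ.toIntLinearMap hφ hφp hfix hrel K hK hKL hN h2
    A _ _ h f w hf hw0 hw hws

variable {G : Type u} [Group G] [Finite G]

/-- Fixed points of an endomorphism of order three in a coset. -/
theorem exists_fix_coset (ψ : G →* G) (hψ : ∀ g, ψ (ψ (ψ g)) = g) (h3 : (Nat.card G).Coprime 3)
    (M : Subgroup G) [M.Normal] (hM : ∀ m ∈ M, ψ m ∈ M) {g : G} (hg : g⁻¹ * ψ g ∈ M) :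
    ∃ c, ψ c = c ∧ g⁻¹ * c ∈ M := by
  classical
  have := Fintype.ofFinite G
  haveI : Fact (Nat.Prime 3) := ⟨Nat.prime_three⟩
  let f : Function.End M := fun m => ⟨g⁻¹ * ψ g * ψ m, mul_mem hg (hM _ m.2)⟩
  have hf : f ^ 3 ^ 1 = 1 := by
    funext m
    apply Subtype.ext
    change g⁻¹ * ψ g * ψ (g⁻¹ * ψ g * ψ (g⁻¹ * ψ g * ψ m)) = m
    simp only [map_mul, map_inv, hψ]
    group
  have h := Equiv.Perm.card_fixedPoints_modEq (α := M) (f := f) (p := 3) (n := 1) hf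
  have hne : Fintype.card (Function.fixedPoints f) ≠ 0 := fun h0 => by
    rw [h0, ← Nat.card_eq_fintype_card] at h
    have := Nat.eq_one_of_dvd_coprimes h3 (((Nat.modEq_zero_iff_dvd).1 h).trans
      (card_subgroup_dvd_card M)) dvd_rfl
    omega
  obtain ⟨⟨m, hm⟩⟩ := Fintype.card_pos_iff.1 (Nat.pos_of_ne_zero hne)
  have hm' : g⁻¹ * ψ g * ψ m = m := congrArg Subtype.val hm
  refine ⟨g * m, ?_, by simp⟩
  rw [map_mul, ← hm']
  conv_lhs => rw [hm']
  group

theorem pow_four_eq_one (φ ψ : G →* G) (hφ : ∀ g, φ^[13] g = g) (hfix : ∀ g, φ g = g → g = 1)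
    (hψ : ∀ g, ψ (ψ (ψ g)) = g) (hrel : ∀ g, φ (ψ g) = ψ (φ^[3] g))
    (h3 : (Nat.card G).Coprime 3) (h2 : ∀ g, ψ g = g → g ^ 2 = 1) (g : G) : g ^ 4 = 1 := by
  haveI : Fact (Nat.Prime 13) := ⟨by norm_num⟩
  haveI := isNilpotent_of_fpf_endo φ hφ hfix
  have hcomm : ∀ a b, ψ a = a → ψ b = b → ⁅a, b⁆ = 1 := fun a b ha hb => by
    have e1 := h2 a ha
    have e2 := h2 b hb
    have e3 := h2 (a * b) (by rw [map_mul, ha, hb])
    rw [pow_two] at e1 e2 e3
    rw [commutatorElement_def, inv_eq_of_mul_eq_one_right e1, inv_eq_of_mul_eq_one_right e2, ← e3]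
    group
  have hrep : ∀ n, ∀ g ∈ lcs G n, ∃ c ∈ lcs G n, ψ c = c ∧
      el n g + mapG ψ (el n g) + mapG ψ (mapG ψ (el n g)) = el n c := fun n g hg => by
    have g1 := map_mem_lcs ψ hg
    have g2 := map_mem_lcs ψ g1
    have hu : g * ψ g * ψ (ψ g) ∈ lcs G n := mul_mem (mul_mem hg g1) g2
    obtain ⟨c, hc, hc'⟩ := exists_fix_coset ψ hψ h3 (lcs G (n + 1)) (fun m hm => map_mem_lcs ψ hm)
      (g := g * ψ g * ψ (ψ g)) (by
        rw [← cls_eq_iff hu (map_mem_lcs ψ hu), map_mul, map_mul, hψ, cls_mul (mul_mem hg g1) g2,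
          cls_mul hg g1, cls_mul (mul_mem g1 g2) hg, cls_mul g1 g2]
        abel)
    have hcn : c ∈ lcs G n := by
      have := mul_mem hu (lcs_succ_le n hc')
      rwa [mul_inv_cancel_left] at this
    refine ⟨c, hcn, hc, ?_⟩
    rw [mapG_el _ hg, mapG_el _ g1, ← el_mul hg g1, ← el_mul (mul_mem hg g1) g2, el, el,
      (cls_eq_iff hu hcn).2 hc']
  have hadd : ∀ x x' : Gr G, x + x' + mapG ψ (x + x') + mapG ψ (mapG ψ (x + x')) =
      (x + mapG ψ x + mapG ψ (mapG ψ x)) + (x' + mapG ψ x' + mapG ψ (mapG ψ x')) := fun x x' => by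
    simp only [map_add]; abel
  have hit : ∀ k n, ∀ g ∈ lcs G n, (mapG φ)^[k] (el n g) = el n (φ^[k] g) := fun k => by
    induction k with
    | zero => intro n g _; rfl
    | succ k ih =>
      intro n g hg
      rw [Function.iterate_succ_apply, mapG_el _ hg, ih _ _ (map_mem_lcs φ hg)]
      rfl
  have hitm : ∀ k n, ∀ g ∈ lcs G n, φ^[k] g ∈ lcs G n := fun k => by
    induction k with
    | zero => intro n g hg; exact hg
    | succ k ih => intro n g hg; exact ih _ _ (map_mem_lcs φ hg)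
  obtain ⟨h1, h2'⟩ := lie13 (mapG φ) (mapG ψ) (mapG_lie φ) (iterate_mapG φ 13 hφ)
    (fun x hx => Gr.ext fun n => by
      obtain ⟨g, hg, e⟩ := exists_cls_eq (toP n x)
      have := congrArg (toP n) hx
      rw [toP_mapG, ← e, mapP_cls _ hg, eq_comm, cls_eq_iff hg (map_mem_lcs φ hg)] at this
      have := fpf_lcs φ hfix n g this
      rw [pow_one] at this
      rw [← e, map_zero, cls_eq_zero_iff hg]
      exact this)
    (fun x => by
      induction x using Gr.induction_on with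
      | h0 => simp
      | h1 n g hg =>
        rw [hit _ _ _ hg, mapG_el _ hg, mapG_el _ (map_mem_lcs ψ hg), mapG_el _ (hitm _ _ _ hg), hrel]
      | h2 x y hx hy => simp only [map_add, hx, hy, Function.iterate_succ_apply, Function.iterate_zero_apply])
    (K := Nat.card G) (coprime_card_of_fpf_endo φ hφ hfix)
    (fun x => by
      induction x using Gr.induction_on with
      | h0 => simp
      | h1 n g hg => rw [← el_pow hg, pow_card_eq_one', el_one]
      | h2 x y hx hy => rw [smul_add, hx, hy, add_zero])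
    (fun x y => by
      induction x using Gr.induction_on with
      | h0 => simp
      | h2 x x' hx hx' => rw [hadd x x', add_lie, hx, hx', add_zero]
      | h1 n g hg =>
        induction y using Gr.induction_on with
        | h0 => simp
        | h2 y y' hy hy' => rw [hadd y y', lie_add, hy, hy', add_zero]
        | h1 m k hk =>
          obtain ⟨c, hc, c1, c2⟩ := hrep n g hg
          obtain ⟨d, hd, d1, d2⟩ := hrep m k hk
          rw [c2, d2, lie_el hc hd, hcomm c d c1 d1, el_one])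
    (fun x => by
      induction x using Gr.induction_on with
      | h0 => simp
      | h2 x x' hx hx' => rw [hadd x x', smul_add, hx, hx', add_zero]
      | h1 n g hg =>
        obtain ⟨c, hc, c1, c2⟩ := hrep n g hg
        rw [c2, ← el_pow hc, h2 c c1, el_one])
  have hl : lcs G 2 = ⊥ := by
    refine lcs_eq_bot_of_pow (K := 1) (Nat.coprime_one_right _) fun g hg => ?_
    rw [pow_one, ← el_eq_zero_iff hg]
    have hx := el_mem_lcsA hg
    generalize el 2 g = x at hx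
    induction hx using AddSubgroup.closure_induction with
    | zero => rfl
    | add x y _ _ hx hy => rw [hx, hy, add_zero]
    | neg x _ hx => rw [hx, neg_zero]
    | mem z hz =>
      obtain ⟨x, hx, y, rfl⟩ := hz
      induction hx using AddSubgroup.closure_induction with
      | zero => rw [zero_lie]
      | add x y _ _ hx hy => rw [add_lie, hx, hy, add_zero]
      | neg x _ hx => rw [neg_lie, hx, neg_zero]
      | mem z hz =>
        obtain ⟨a, -, b, rfl⟩ := hz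
        exact h1 _ _ _
  have s : ∀ n, ∀ g ∈ lcs G n, g ^ 2 ∈ lcs G (n + 1) := fun n g hg => by
    rw [← el_eq_zero_iff (pow_mem hg 2), el_pow hg, h2']
  have := s 1 _ (s 0 g (mem_top g))
  rwa [hl, mem_bot, ← pow_mul] at this

end CfsgLib.Crit13
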