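import Mathlib
import Cfsg.Agent.Lib.Crit13.Lie
import Cfsg.Agent.Lib.Nse.Trace
import Cfsg.Agent.Lib.Frob.Complement
import Cfsg.Agent.Lib.Core.MinNormal

/-! Solvable groups with the element orders of `L₃(3)` have a normal 13-subgroup. -/

set_option autoImplicit false

open scoped commutatorElement
open Subgroup Cfsg

namespace CfsgLib.Crit13

universe u

/-- all element orders occur in `L₃(3)` -/
def Om (G : Type*) [Group G] : Prop := ∀ g : G, orderOf g ∈ ({1, 2, 3, 4, 6, 8, 13} : Set ℕ)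

theorem z13a : ∀ k : ZMod 13, k ^ 8 = 1 → k ^ 4 = 1 := by decide

theorem z13b : ∀ j l : ZMod 13, j ≠ 1 → j ^ 2 = 1 → l ≠ 1 → l ^ 3 = 1 → (j * l) ^ 8 ≠ 1 ∧
    (j * l) ^ 3 ≠ 1 ∧ (j * l) ^ 13 ≠ 1 := by decide

theorem z13c : ∀ l : ZMod 13, l ≠ 1 → l ^ 3 = 1 → l = 3 ∨ l ^ 2 = 3 := by decide

variable {G : Type u} [Group G]

theorem Om.cases (h : Om G) (g : G) : orderOf g = 1 ∨ orderOf g = 2 ∨ orderOf g = 3 ∨
    orderOf g = 4 ∨ orderOf g = 6 ∨ orderOf g = 8 ∨ orderOf g = 13 := by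
  simpa using h g

theorem Om.c13 (h : Om G) {x g : G} (hx : orderOf x = 13) (hc : Commute x g) : g ^ 13 = 1 := by
  rw [← orderOf_dvd_iff_pow_eq_one]
  by_contra hn
  have hco : (orderOf x).Coprime (orderOf g) := by
    rcases h.cases g with e | e | e | e | e | e | e <;> rw [e] at hn ⊢ <;> rw [hx] <;>
      first | exact absurd (by decide) hn | norm_num
  have h1 := hc.orderOf_mul_eq_mul_orderOf_of_coprime hco
  have h2 := h.cases (x * g)
  have h3 := h.cases g
  have : orderOf g ≠ 1 := fun e => hn (e ▸ one_dvd _)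
  rw [hx] at h1
  omega

theorem Om.c34 (h : Om G) {c g : G} (hc : orderOf c = 3) (hg : orderOf g = 4 ∨ orderOf g = 8) :
    ¬ Commute c g := fun hcg => by
  have hco : (orderOf c).Coprime (orderOf g) := by
    rcases hg with e | e <;> rw [hc, e] <;> norm_num
  have h1 := hcg.orderOf_mul_eq_mul_orderOf_of_coprime hco
  have h2 := h.cases (c * g)
  rw [hc] at h1
  omega

theorem Om.ord13 (h : Om G) {P : Subgroup G} (hP : IsPGroup 13 P) {u : G} (hu : u ∈ P)
    (h1 : u ≠ 1) : orderOf u = 13 := by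
  obtain ⟨k, hk⟩ := hP ⟨u, hu⟩
  have hk' : u ^ 13 ^ k = 1 := congrArg Subtype.val hk
  have hd := orderOf_dvd_of_pow_eq_one hk'
  have h2 : ¬ 2 ∣ orderOf u := fun e =>
    absurd (Nat.prime_two.dvd_of_dvd_pow (e.trans hd)) (by norm_num)
  have h3 : ¬ 3 ∣ orderOf u := fun e =>
    absurd (Nat.prime_three.dvd_of_dvd_pow (e.trans hd)) (by norm_num)
  have h4 : orderOf u ≠ 1 := fun e => h1 (orderOf_eq_one_iff.1 e)
  have := h.cases u
  omega

theorem Om.eq_one (h : Om G) {x g : G} (hx : orderOf x = 13) (hc : Commute x g) {n : ℕ}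
    (hn : n.Coprime 13) (hg : g ^ n = 1) : g = 1 :=
  orderOf_eq_one_iff.1 (Nat.eq_one_of_dvd_coprimes hn (orderOf_dvd_of_pow_eq_one hg)
    (orderOf_dvd_of_pow_eq_one (h.c13 hx hc)))

/-- `y` raises `x` to the power `k` -/
def Rk (x y : G) (k : ZMod 13) : Prop := y * x * y⁻¹ = x ^ k.val

theorem Rk.mul {x y y' : G} (hx : orderOf x = 13) {k k' : ZMod 13} (h : Rk x y k) (h' : Rk x y' k') :
    Rk x (y * y') (k * k') := by
  unfold Rk at *
  have e : ∀ n, x ^ (n % 13) = x ^ n := fun n => by rw [← hx, pow_mod_orderOf]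
  rw [ZMod.val_mul, e, pow_mul, ← h, conj_pow, ← h']
  group

theorem Rk.one_iff {x y : G} : Rk x y 1 ↔ Commute x y := by
  have : (1 : ZMod 13).val = 1 := rfl
  rw [Rk, this, pow_one, mul_inv_eq_iff_eq_mul]
  exact ⟨fun h => h.symm, fun h => h.symm⟩

theorem Rk.pow {x y : G} (hx : orderOf x = 13) {k : ZMod 13} (h : Rk x y k) (n : ℕ) :
    Rk x (y ^ n) (k ^ n) := by
  induction n with
  | zero => rw [pow_zero, pow_zero]; exact Rk.one_iff.2 (Commute.one_right x)
  | succ n ih => rw [pow_succ, pow_succ]; exact ih.mul hx h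

theorem Rk.unique {x y : G} (hx : orderOf x = 13) {k k' : ZMod 13} (h : Rk x y k) (h' : Rk x y k') :
    k = k' := by
  have e : x ^ k.val = x ^ k'.val := h.symm.trans h'
  rw [pow_inj_mod, hx, Nat.mod_eq_of_lt (ZMod.val_lt k), Nat.mod_eq_of_lt (ZMod.val_lt k')] at e
  exact ZMod.val_injective _ e

theorem Rk.pow_eq_one {x y : G} (hx : orderOf x = 13) {k : ZMod 13} (h : Rk x y k) {n : ℕ}
    (hn : y ^ n = 1) : k ^ n = 1 :=
  (h.pow hx n).unique hx (hn ▸ Rk.one_iff.2 (Commute.one_right x))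

variable [Finite G]

theorem exists_Rk {x y : G} (hx : orderOf x = 13) (hy : y ∈ normalizer (zpowers x : Set G)) :
    ∃ k, Rk x y k := by
  obtain ⟨n, hn⟩ := mem_powers_iff_mem_zpowers.2 ((mem_normalizer_iff.1 hy x).1 (mem_zpowers x))
  refine ⟨n, ?_⟩
  rw [Rk, ZMod.val_natCast, ← hx, pow_mod_orderOf]
  exact hn.symm

theorem pCore_ne_bot [Group.IsSolvable G] (h : Om G) (h13 : ∃ x : G, orderOf x = 13)
    (h8 : ∃ g : G, orderOf g = 8) (h3 : ∃ c : G, orderOf c = 3) : pCore 13 G ≠ ⊥ := by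
  intro hO
  have p13 : Nat.Prime 13 := by norm_num
  haveI : Fact (Nat.Prime 13) := ⟨p13⟩
  obtain ⟨x, hx⟩ := h13
  obtain ⟨g, hg⟩ := h8
  obtain ⟨c0, hc0⟩ := h3
  have hx1 : x ≠ 1 := fun e => by simp [e] at hx
  have hx13 : x ^ 13 = 1 := hx ▸ pow_orderOf_eq_one x
  haveI : Nontrivial G := ⟨⟨x, 1, hx1⟩⟩
  set N := pPrimeCore 13 G with hNdef
  have hNc : (Nat.card N).Coprime 13 := Core.coprime_card_pPrimeCore 13 G
  have hN1 : N ≠ ⊥ := fun e => Core.fittingSubgroup_ne_bot (G := G)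
    (eq_bot_iff.2 ((Core.fittingSubgroup_le_pPrimeCore_of_pCore_eq_bot p13 hO).trans e.le))
  have hfix : ∀ u, orderOf u = 13 → ∀ n ∈ N, Commute u n → n = 1 := fun u hu n hn hc =>
    h.eq_one hu hc hNc (orderOf_dvd_iff_pow_eq_one.1 (Subgroup.orderOf_dvd_natCard _ hn))
  have hxc : Nat.card (zpowers x) = 13 := by rw [Nat.card_zpowers, hx]
  obtain ⟨P, hP⟩ := (IsPGroup.of_card (p := 13) (n := 1) (by rw [hxc, pow_one])).exists_le_sylow
  have hPx : (P : Subgroup G) = zpowers x := by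
    have hc : IsCyclic P := (Frob.pqCond_of_fpf hN1 le_normalizer_of_normal fun u hu h1 =>
      eq_bot_iff.2 fun n hn => hfix u (h.ord13 P.isPGroup' hu h1) n hn.1
        (mem_centralizer_singleton_iff.1 hn.2).symm).isCyclic_of_odd P.isPGroup' (by norm_num)
    obtain ⟨u, hu⟩ := hc.exists_ofOrder_eq_natCard
    refine (eq_of_le_of_card_ge hP ?_).symm
    rw [hxc, ← hu, ← Subgroup.orderOf_coe]
    by_cases h1 : (u : G) = 1
    · rw [h1, orderOf_one]; norm_num
    · exact (h.ord13 P.isPGroup' u.2 h1).le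
  have hxN : zpowers x ⊓ N = ⊥ := by
    refine inf_eq_bot_of_coprime ?_
    rw [hxc]; exact hNc.symm
  have hfr : ∀ a : G, ∃ y ∈ normalizer (zpowers x : Set G), (y : G ⧸ N) = a := by
    have h1 : pCore 13 (G ⧸ N) ≠ ⊥ := by
      have hs := QuotientGroup.mk'_surjective N
      haveI : Nontrivial (G ⧸ N) := ⟨⟨x, 1, fun e => hx1 (by
        have : x ∈ zpowers x ⊓ N := ⟨mem_zpowers x, (QuotientGroup.eq_one_iff x).1 e⟩
        rwa [hxN, mem_bot] at this)⟩⟩
      rw [← Core.fittingSubgroup_eq_pCore_of_pPrimeCore_eq_bot p13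
        (Core.pPrimeCore_quotient_pPrimeCore 13 G)]
      exact Core.fittingSubgroup_ne_bot
    have h2 : pCore 13 (G ⧸ N) ≤ (zpowers x).map (QuotientGroup.mk' N) := by
      have := Core.pCore_le_sylow (P.mapSurjective (QuotientGroup.mk'_surjective N))
      rwa [Sylow.coe_mapSurjective, hPx] at this
    have h3 : pCore 13 (G ⧸ N) = (zpowers x).map (QuotientGroup.mk' N) := by
      refine eq_of_le_of_card_ge h2 ?_
      refine (Nat.le_of_dvd (by norm_num) (hxc ▸ card_map_dvd _ _)).trans ?_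
      exact Nat.le_of_dvd Nat.card_pos
        (Core.dvd_card_of_isPGroup_of_ne_bot (Core.isPGroup_pCore 13 _) h1)
    have h4 := Coprime.map_normalizer_quotient N (A := zpowers x) (by rw [hxc]; exact hNc.symm)
      (Or.inr inferInstance)
    rw [← h3, normalizer_eq_top (pCore 13 (G ⧸ N))] at h4
    intro a
    obtain ⟨y, hy, e⟩ := h4.ge (mem_top (a : G ⧸ N))
    exact ⟨y, hy, e⟩
  have hNN : ∀ y ∈ normalizer (zpowers x : Set G), y ∈ N → y = 1 := fun y hy hyN => by
    refine hfix x hx y hyN (commutatorElement_eq_one_iff_commute.1 ?_)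
    have : ⁅x, y⁆ ∈ zpowers x ⊓ N := by
      refine mem_inf.2 ⟨?_, ?_⟩
      · rw [commutatorElement_def, mul_assoc, mul_assoc, ← mul_assoc y]
        exact mul_mem (mem_zpowers x) ((mem_normalizer_iff.1 hy _).1 (inv_mem (mem_zpowers x)))
      · rw [commutatorElement_def]
        exact mul_mem (Normal.conj_mem inferInstance _ hyN x) (inv_mem hyN)
    rwa [hxN, mem_bot] at this
  have hlift : ∀ a : G, ∀ n, a ^ n = 1 → ∃ y ∈ normalizer (zpowers x : Set G), y ^ n = 1 ∧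
      ∀ m, y ^ m = 1 → a ^ m ∈ N := fun a n ha => by
    obtain ⟨y, hy, e⟩ := hfr a
    refine ⟨y, hy, hNN _ (pow_mem hy n) ?_, fun m hm => ?_⟩
    · rw [← QuotientGroup.eq_one_iff, QuotientGroup.mk_pow, e, ← QuotientGroup.mk_pow, ha]; rfl
    · rw [← QuotientGroup.eq_one_iff, QuotientGroup.mk_pow, ← e, ← QuotientGroup.mk_pow, hm]; rfl
  haveI hnil : Group.IsNilpotent N := by
    refine Frob.isNilpotent_of_fpf_prime (φ := MulAut.conjNormal x) (fun n hn => ?_) p13 ?_
    · refine Subtype.ext (hfix x hx n n.2 ?_)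
      have : x * n * x⁻¹ = n := congrArg Subtype.val hn
      exact mul_inv_eq_iff_eq_mul.1 this
    · rw [← map_pow, hx13, map_one]
  have key : ∀ r : ℕ, r.Prime → ∀ a ∈ N, orderOf a = r → ∀ y ∈ normalizer (zpowers x : Set G),
      (orderOf y).Coprime 13 → ∃ z : G, orderOf z = orderOf y * r := by
    intro r hr a ha har y hy hy13
    haveI : Fact r.Prime := ⟨hr⟩
    have hr13 : r ≠ 13 := fun e => by
      have := Nat.eq_one_of_dvd_coprimes hNc (har ▸ Subgroup.orderOf_dvd_natCard _ ha) (e ▸ dvd_rfl)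
      omega
    have h1 : pCore r G ≠ ⊥ := fun e => by
      have := Core.le_pCore_of_le_fittingSubgroup (p := r) (H := zpowers a)
        ((zpowers_le.2 ha).trans (Core.le_fittingSubgroup hnil))
        (IsPGroup.of_card (n := 1) (by rw [Nat.card_zpowers, har, pow_one])) (mem_zpowers a)
      rw [e, mem_bot] at this
      rw [this, orderOf_one] at har
      exact hr.one_lt.ne har
    obtain ⟨r', V, hr', hVn, hV1, hVle, ⟨hVc, hVe⟩, -⟩ :=
      Core.exists_elementaryAbelian_minimal_normal_le h1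
    obtain rfl : r' = r := by
      obtain ⟨v, hv, hv'⟩ := Core.exists_mem_orderOf_eq_of_isPGroup
        ((Core.isPGroup_pCore r G).to_le hVle) hV1
      exact ((Nat.prime_dvd_prime_iff_eq hr hr').1 (hv' ▸ orderOf_dvd_of_pow_eq_one (hVe v hv))).symm
    have hVN : V ≤ N := hVle.trans (Core.pCore_le_pPrimeCore_of_ne hr p13 hr13)
    by_contra hz
    push Not at hz
    have h2 := Nse.pow_card_eq_one_of_norm V (zpowers x) (orderOf_pos y) hy (pow_orderOf_eq_one y)
      (fun v hv u hu => ?_) (fun v hv hu => hfix x hx v (hVN hv)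
        (mul_inv_eq_iff_eq_mul.1 (hu x (mem_zpowers x)))) (fun i hi hi' u hu hc => ?_)
    · refine hV1 (eq_bot_iff.2 fun v hv => mem_bot.2 (orderOf_eq_one_iff.1 ?_))
      exact Nat.eq_one_of_dvd_coprimes hNc (Subgroup.orderOf_dvd_natCard _ (hVN hv))
        (hxc ▸ orderOf_dvd_of_pow_eq_one (h2 v hv))
    · set z := v * (u * y * u⁻¹) with hzdef
      have e1 : ∀ M : Subgroup G, ∀ [M.Normal], V ≤ M → ∀ m : ℕ, z ^ m ∈ M ↔ y ^ m ∈ M := by
        intro M _ hM m
        rw [← QuotientGroup.eq_one_iff, QuotientGroup.mk_pow, hzdef, QuotientGroup.mk_mul,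
          (QuotientGroup.eq_one_iff v).2 (hM hv), one_mul, ← QuotientGroup.mk_pow, conj_pow,
          QuotientGroup.eq_one_iff, Normal.mem_comm_iff inferInstance, inv_mul_cancel_left]
      have e2 : orderOf y ∣ orderOf z := orderOf_dvd_of_pow_eq_one (hNN _ (pow_mem hy _)
        ((e1 N hVN _).1 (by rw [pow_orderOf_eq_one]; exact one_mem _)))
      have e3 : orderOf z ∣ orderOf y * r' := orderOf_dvd_of_pow_eq_one (by
        rw [pow_mul]
        exact hVe _ ((e1 V le_rfl _).2 (by rw [pow_orderOf_eq_one]; exact one_mem _)))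
      obtain ⟨t, ht⟩ := e2
      rw [ht] at e3
      rcases (Nat.dvd_prime hr).1 (Nat.dvd_of_mul_dvd_mul_left (orderOf_pos y) e3) with e | e
      · rw [e, mul_one] at ht
        rw [← ht, pow_orderOf_eq_one]
      · exact absurd (e ▸ ht) (hz z)
    · by_contra hu1
      have := h.eq_one (h.ord13 (hPx ▸ P.isPGroup') hu hu1) hc hy13 (by
        rw [← pow_mul, mul_comm, pow_mul, pow_orderOf_eq_one, one_pow])
      exact absurd (Nat.le_of_dvd hi (orderOf_dvd_of_pow_eq_one this)) (not_le.2 hi')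
  obtain ⟨y, hy, hy8, hyN⟩ := hlift g 8 (hg ▸ pow_orderOf_eq_one g)
  obtain ⟨k, hk⟩ := exists_Rk hx hy
  have hy4 : y ^ 4 = 1 := by
    have e := z13a
    have := hk.pow hx 4
    rw [e k (hk.pow_eq_one hx hy8)] at this
    exact h.eq_one hx (Rk.one_iff.1 this) (n := 2) (by norm_num) (by rw [← pow_mul, hy8])
  have hyo : orderOf y = 1 ∨ orderOf y = 2 ∨ orderOf y = 4 := by
    have := (Nat.dvd_prime_pow (m := 2) Nat.prime_two).1 (orderOf_dvd_of_pow_eq_one hy4)
    obtain ⟨i, hi, e⟩ := this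
    interval_cases i <;> simp [e]
  have hy13 : (orderOf y).Coprime 13 := by rcases hyo with e | e | e <;> rw [e] <;> norm_num
  by_cases hN3 : 3 ∣ Nat.card N
  · obtain ⟨c, hc, hc3⟩ := Core.exists_mem_orderOf_eq_of_dvd_card Nat.prime_three hN3
    obtain ⟨z, hz⟩ := key 3 Nat.prime_three c hc hc3 y hy hy13
    have h1 : y ^ 2 = 1 := by
      have := h.cases z
      rw [← orderOf_dvd_iff_pow_eq_one]
      rcases hyo with e | e | e <;> rw [e] at hz ⊢
      · norm_num
      · omega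
    have h2 : orderOf (g ^ 2) = 4 := by rw [orderOf_pow' _ two_ne_zero, hg]; rfl
    refine h.c34 hc3 (Or.inl h2) ?_
    have := Core.commute_of_coprime_orderOf_of_isNilpotent (x := (⟨c, hc⟩ : N))
      (y := ⟨g ^ 2, hyN 2 h1⟩) (by
        rw [← Subgroup.orderOf_coe, ← Subgroup.orderOf_coe]
        change (orderOf c).Coprime (orderOf (g ^ 2))
        rw [hc3, h2]; norm_num)
    exact congrArg Subtype.val this
  obtain ⟨c, hc, hc3, hcN⟩ := hlift c0 3 (hc0 ▸ pow_orderOf_eq_one c0)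
  have hc1 : c ≠ 1 := fun e => hN3 (hc0 ▸ Subgroup.orderOf_dvd_natCard _ (by
    simpa using hcN 1 (by rw [e, one_pow])))
  obtain ⟨l, hl⟩ := exists_Rk hx hc
  have hl1 : l ≠ 1 := fun e => hc1 (h.eq_one hx (Rk.one_iff.1 (e ▸ hl)) (by norm_num) hc3)
  have hl3 := hl.pow_eq_one hx hc3
  have hgN : g ∈ N := by
    by_contra hgN
    have hy1 : y ≠ 1 := fun e => hgN (by simpa using hyN 1 (by rw [e, one_pow]))
    obtain ⟨t, ht, ht2, ht1⟩ : ∃ t ∈ normalizer (zpowers x : Set G), t ^ 2 = 1 ∧ t ≠ 1 := by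
      by_cases e : y ^ 2 = 1
      · exact ⟨y, hy, e, hy1⟩
      · exact ⟨y ^ 2, pow_mem hy 2, by rw [← pow_mul, hy4], e⟩
    obtain ⟨j, hj⟩ := exists_Rk hx ht
    have hj1 : j ≠ 1 := fun e => ht1 (h.eq_one hx (Rk.one_iff.1 (e ▸ hj)) (by norm_num) ht2)
    have hj2 := hj.pow_eq_one hx ht2
    have e := z13b
    obtain ⟨e1, e2, e3⟩ := e j l hj1 hj2 hl1 hl3
    have hz := hj.mul hx hl
    have h6 : orderOf (t * c) = 6 := by
      have a1 : ¬ orderOf (t * c) ∣ 8 := fun d => e1 (hz.pow_eq_one hx (orderOf_dvd_iff_pow_eq_one.1 d))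
      have a2 : ¬ orderOf (t * c) ∣ 3 := fun d => e2 (hz.pow_eq_one hx (orderOf_dvd_iff_pow_eq_one.1 d))
      have a3 : ¬ orderOf (t * c) ∣ 13 := fun d => e3 (hz.pow_eq_one hx (orderOf_dvd_iff_pow_eq_one.1 d))
      rcases h.cases (t * c) with d | d | d | d | d | d | d <;> rw [d] at a1 a2 a3 ⊢ <;>
        first | rfl | exact absurd (by decide) a1 | exact absurd (by decide) a2 |
          exact absurd (by decide) a3
    obtain ⟨z, hz⟩ := key 2 Nat.prime_two (g ^ 4) (hyN 4 hy4)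
      (by rw [orderOf_pow' _ (by norm_num), hg]; rfl) _ (mul_mem ht hc) (by rw [h6]; norm_num)
    have := h.cases z
    omega
  obtain ⟨d, hd3, hd1, hd⟩ : ∃ d : G, d ^ 3 = 1 ∧ d ≠ 1 ∧ Rk x d 3 := by
    have e := z13c
    rcases e l hl1 hl3 with e | e
    · exact ⟨c, hc3, hc1, e ▸ hl⟩
    · refine ⟨c ^ 2, by rw [← pow_mul, mul_comm, pow_mul, hc3, one_pow], fun e' => hc1 ?_,
        e ▸ hl.pow hx 2⟩
      rw [pow_succ, e', one_mul] at hc3
      exact hc3
  have hd' : d * x * d⁻¹ = x ^ 3 := hd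
  have hdo : orderOf d = 3 := by
    haveI : Fact (Nat.Prime 3) := ⟨Nat.prime_three⟩
    exact orderOf_eq_prime hd3 hd1
  have := pow_four_eq_one (G := N) (MulAut.conjNormal x).toMonoidHom
    (MulAut.conjNormal d⁻¹).toMonoidHom (fun n => ?_) (fun n hn => ?_) (fun n => ?_) (fun n => ?_)
    ((Nat.coprime_comm.1 (Nat.prime_three.coprime_iff_not_dvd.2 hN3))) (fun n hn => ?_) ⟨g, hgN⟩
  · have e : g ^ 4 = 1 := congrArg Subtype.val this
    have := orderOf_dvd_of_pow_eq_one e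
    rw [hg] at this
    omega
  · have := LieM.mulAut_pow_apply (MulAut.conjNormal x : MulAut N) 13 n
    rw [← map_pow, hx13, map_one] at this
    exact this.symm
  · refine Subtype.ext (hfix x hx n n.2 ?_)
    have : x * n * x⁻¹ = n := congrArg Subtype.val hn
    exact mul_inv_eq_iff_eq_mul.1 this
  · apply Subtype.ext
    change d⁻¹ * (d⁻¹ * (d⁻¹ * n * d⁻¹⁻¹) * d⁻¹⁻¹) * d⁻¹⁻¹ = n
    calc _ = (d * d * d)⁻¹ * n * (d * d * d) := by group
      _ = n := by rw [← pow_three', hd3]; group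
  · apply Subtype.ext
    change x * (d⁻¹ * n * d⁻¹⁻¹) * x⁻¹ = d⁻¹ * (x * (x * (x * n * x⁻¹) * x⁻¹) * x⁻¹) * d⁻¹⁻¹
    calc _ = d⁻¹ * (d * x * d⁻¹) * n * (d * x * d⁻¹)⁻¹ * d := by group
      _ = _ := by rw [hd', pow_three']; group
  · have e : d⁻¹ * n * d⁻¹⁻¹ = n := congrArg Subtype.val hn
    have hc : Commute d n := by
      rw [inv_inv, mul_assoc, inv_mul_eq_iff_eq_mul] at e
      exact e.symm
    apply Subtype.ext
    change (n : G) ^ 2 = 1
    rw [← orderOf_dvd_iff_pow_eq_one]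
    have a1 := h.c34 hdo (g := n)
    have a2 : ¬ 3 ∣ orderOf (n : G) := fun e => hN3 (e.trans (Subgroup.orderOf_dvd_natCard _ n.2))
    have a3 : orderOf (n : G) ≠ 13 := fun e => by
      have := Nat.eq_one_of_dvd_coprimes hNc (e ▸ Subgroup.orderOf_dvd_natCard _ n.2) dvd_rfl
      omega
    rcases h.cases n with e | e | e | e | e | e | e
    · rw [e]; norm_num
    · rw [e]
    · exact absurd (by rw [e]) a2
    · exact absurd hc (a1 (Or.inl e))
    · exact absurd (by rw [e]; norm_num) a2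
    · exact absurd hc (a1 (Or.inr e))
    · exact absurd e a3

end CfsgLib.Crit13
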