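import Mathlib
import Cfsg.Agent.Lib.Crit13.CaseB
import Cfsg.Agent.Lib.FrobCompl.Solv
import Cfsg.Agent.Lib.Frob.FPF
import Cfsg.Agent.Lib.Coprime.Hall

/-! The solvable groups critical for the element orders of `L₃(3)`. -/

set_option autoImplicit false

open scoped commutatorElement IsMulCommutative
open Subgroup Cfsg

namespace CfsgLib.Crit13

universe u

theorem card_dvd_of_irr {W : Type*} [CommGroup W] [Finite W] (h13 : ∀ w : W, w ^ 13 = 1)
    (α β : MulAut W) (hα : ∀ w, α (α (α (α w))) = w⁻¹) (hβ : ∀ w, β (β w) = w⁻¹)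
    (hr : ∀ w, w * α (β w) * α (β (α (β w))) = 1)
    (hirr : ∀ U : Subgroup W, (∀ w ∈ U, α w ∈ U) → (∀ w ∈ U, β w ∈ U) → U = ⊥ ∨ U = ⊤) :
    Nat.card W ∣ 13 ^ 4 := by
  classical
  rcases subsingleton_or_nontrivial W with h | h
  · rw [Nat.card_of_subsingleton (1 : W)]; exact one_dvd _
  obtain ⟨v, hv1, k, hv⟩ : ∃ v : W, v ≠ 1 ∧ ∃ k : ℕ, β v = v ^ k := by
    obtain ⟨u, hu⟩ := exists_ne (1 : W)
    by_cases e : β u * u ^ 5 = 1
    · refine ⟨u, hu, 8, ?_⟩
      rw [eq_inv_of_mul_eq_one_left e, inv_eq_iff_mul_eq_one, ← pow_add, h13]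
    · refine ⟨_, e, 5, ?_⟩
      rw [map_mul, hβ, map_pow, mul_pow, mul_comm, mul_right_inj, ← pow_mul,
        inv_eq_iff_mul_eq_one, ← pow_succ', show 5 * 5 + 1 = 13 * 2 from rfl, pow_mul, h13, one_pow]
  let S : Finset W := {v, α v, α (α v), α (α (α v))}
  have m : ∀ w ∈ S, w ∈ closure (S : Set W) := fun w hw => subset_closure hw
  have m0 := m v (by simp [S])
  have m1 := m (α v) (by simp [S])
  have m2 := m (α (α v)) (by simp [S])
  have m3 := m (α (α (α v))) (by simp [S])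
  have inv : ∀ γ : MulAut W, (∀ w ∈ S, γ w ∈ closure (S : Set W)) →
      ∀ w ∈ closure (S : Set W), γ w ∈ closure (S : Set W) := fun γ hγ w hw => by
    induction hw using closure_induction with
    | mem x hx => exact hγ x hx
    | one => rw [map_one]; exact one_mem _
    | mul x y _ _ hx hy => rw [map_mul]; exact mul_mem hx hy
    | inv x _ hx => rw [map_inv]; exact inv_mem hx
  have ha := inv α fun w hw => by
    simp only [S, Finset.mem_insert, Finset.mem_singleton] at hw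
    rcases hw with rfl | rfl | rfl | rfl
    · exact m1
    · exact m2
    · exact m3
    · rw [hα]; exact inv_mem m0
  have step : ∀ u ∈ closure (S : Set W), β u ∈ closure (S : Set W) →
      β (α u) ∈ closure (S : Set W) := fun u hu hb => by
    have e := hr (β u)⁻¹
    rw [map_inv β, hβ, inv_inv] at e
    have e' : α (β (α u)) = ((β u)⁻¹ * α u)⁻¹ := eq_inv_of_mul_eq_one_right e
    have : α (β (α u)) ∈ closure (S : Set W) := e' ▸ inv_mem (mul_mem (inv_mem hb) (ha _ hu))
    have := ha _ (ha _ (ha _ this))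
    rwa [hα, inv_mem_iff] at this
  have b0 : β v ∈ closure (S : Set W) := hv ▸ pow_mem m0 k
  have b1 := step _ m0 b0
  have b2 := step _ m1 b1
  have b3 := step _ m2 b2
  have hb := inv β fun w hw => by
    simp only [S, Finset.mem_insert, Finset.mem_singleton] at hw
    rcases hw with rfl | rfl | rfl | rfl <;> assumption
  have htop := (hirr _ ha hb).resolve_left fun e => hv1 (by rwa [e, mem_bot] at m0)
  refine (card_dvd_exponent_pow_rank' W h13).trans (pow_dvd_pow _ ?_)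
  exact (Group.rank_le htop).trans Finset.card_le_four

variable {G : Type u} [Group G] [Finite G]

theorem Om.subgroup (h : Om G) (H : Subgroup G) : Om H := fun g => by
  rw [← Subgroup.orderOf_coe]; exact h g

/-- The structure of the complement. -/
theorem compl_struct (h : Om G) [Group.IsSolvable G] (hq : Frob.PQCond G)
    (h13 : ∀ g : G, orderOf g ≠ 13) (huniq : ∀ s t : G, orderOf s = 2 → orderOf t = 2 → s = t)
    (h8 : ∃ g : G, orderOf g = 8) (h3 : ∃ c : G, orderOf c = 3) :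
    ∃ (f : G →* Equiv.Perm (Fin 4)) (z : G), Function.Surjective f ∧ orderOf z = 2 ∧
      f.ker = zpowers z := by
  obtain ⟨g, hg⟩ := h8
  obtain ⟨c, hc⟩ := h3
  haveI : Fact (Nat.Prime 3) := ⟨Nat.prime_three⟩
  have hg2 : orderOf (g ^ 2) = 4 := by rw [orderOf_pow' _ two_ne_zero, hg]; rfl
  have hz : orderOf (g ^ 4) = 2 := by rw [orderOf_pow' _ (by norm_num), hg]; rfl
  have hn : ¬ HasNormalPComplement 2 G := by
    rintro ⟨P, C, hC, hCP⟩
    have hi : C.index = Nat.card P := hCP.symm.index_eq_card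
    obtain ⟨k, hk⟩ := IsPGroup.iff_card.1 P.isPGroup'
    have hcC : c ∈ C := by
      rw [← QuotientGroup.eq_one_iff, ← orderOf_eq_one_iff]
      refine Nat.eq_one_of_dvd_coprimes (Nat.Coprime.pow_right k (by norm_num : Nat.Coprime 3 2))
        (hc ▸ orderOf_map_dvd (QuotientGroup.mk' C) c) ?_
      rw [← hk, ← hi]
      exact _root_.orderOf_dvd_natCard _
    have hodd : ¬ 2 ∣ Nat.card C := by
      rw [← hCP.index_eq_card]
      exact P.not_dvd_index
    have hC3 : IsPGroup 3 C := Core.isPGroup_of_forall_pow_eq_one fun x hx => by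
      have h1 : ¬ 2 ∣ orderOf x := fun e => hodd (e.trans (Subgroup.orderOf_dvd_natCard _ hx))
      have h2 := h.cases x
      have h3 := h13 x
      rw [← orderOf_dvd_iff_pow_eq_one]
      have : orderOf x = 1 ∨ orderOf x = 3 := by omega
      rcases this with e | e <;> simp [e]
    haveI := (hq.subgroup C).isCyclic_of_odd hC3 (by norm_num)
    have hc' : orderOf (g * c * g⁻¹) = 3 := by
      rw [← hc]; exact (SemiconjBy.orderOf_eq g (by simp [SemiconjBy])).symm
    have hcomm : g * c * g⁻¹ * c = c * (g * c * g⁻¹) :=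
      congrArg Subtype.val (mul_comm (⟨_, hC.conj_mem c hcC g⟩ : C) ⟨c, hcC⟩)
    obtain ⟨n, hn⟩ := mem_powers_iff_mem_zpowers.2
      (hq.mem_zpowers_of_commute Nat.prime_three hc hc' hcomm)
    have hn' : g * c * g⁻¹ = c ^ (n % 3) := by rw [← hc, pow_mod_orderOf]; exact hn.symm
    refine h.c34 hc (Or.inl hg2) ?_
    have e : g ^ 2 * c * (g ^ 2)⁻¹ = c ^ (n % 3 * (n % 3)) := by
      rw [pow_mul, ← hn', conj_pow, ← hn', pow_two]; group
    have : n % 3 = 0 ∨ n % 3 = 1 ∨ n % 3 = 2 := by omega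
    rcases this with e' | e' | e' <;> rw [e'] at e hn'
    · rw [hn', pow_zero, orderOf_one] at hc'; omega
    · exact (mul_inv_eq_iff_eq_mul.1 (e.trans (pow_one c))).symm
    · refine (mul_inv_eq_iff_eq_mul.1 (e.trans ?_)).symm
      rw [show 2 * 2 = 3 + 1 from rfl, pow_succ, ← hc, pow_orderOf_eq_one, one_mul]
  obtain ⟨Q, hQ, ⟨e⟩⟩ := FrobCompl.exists_normal_Q8 hq hn
  obtain ⟨a, ha, b, hb, ha4, hb4, hab⟩ := FrobCompl.exists_four_pair e
  have hC : centralizer (Q : Set G) = zpowers (g ^ 4) := by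
    refine le_antisymm (fun x hx => ?_) (zpowers_le.2 fun q _ => ?_)
    · have a1 : ∀ y ∈ centralizer (Q : Set G), orderOf y ≠ 4 := fun y hy =>
        FrobCompl.no_four_of_centralizes hq ha4 hb4 hab (hy a ha) (hy b hb)
      have a2 : ∀ y ∈ centralizer (Q : Set G), orderOf y ≠ 3 := fun y hy e =>
        h.c34 e (Or.inl ha4) (hy a ha).symm
      rcases h.cases x with d | d | d | d | d | d | d
      · rw [orderOf_eq_one_iff.1 d]; exact one_mem _
      · rw [huniq x _ d hz]; exact mem_zpowers _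
      · exact absurd d (a2 x hx)
      · exact absurd d (a1 x hx)
      · exact absurd (by rw [orderOf_pow' _ two_ne_zero, d]; rfl) (a2 _ (pow_mem hx 2))
      · exact absurd (by rw [orderOf_pow' _ two_ne_zero, d]; rfl) (a1 _ (pow_mem hx 2))
      · exact absurd d (h13 x)
    · refine mul_inv_eq_iff_eq_mul.1 (huniq _ _ ?_ hz)
      rw [← hz]; exact (SemiconjBy.orderOf_eq q (by simp [SemiconjBy])).symm
  rcases FrobCompl.exists_hom_of_normal_Q8 hq hn e with ⟨f, -, hf⟩ | ⟨f, hf, hf'⟩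
  · exfalso
    have a4 : ∀ σ : alternatingGroup (Fin 4), σ ^ 2 = 1 ∨ σ ^ 3 = 1 := by decide
    have : ∀ n : ℕ, f g ^ n = 1 → 8 ∣ n * 2 := fun n hn => by
      rw [← map_pow, ← MonoidHom.mem_ker, hf, hC] at hn
      have := Subgroup.orderOf_dvd_natCard _ hn
      rw [Nat.card_zpowers, hz, orderOf_dvd_iff_pow_eq_one, ← pow_mul] at this
      exact hg ▸ orderOf_dvd_of_pow_eq_one this
    rcases a4 (f g) with d | d <;> have := this _ d <;> omega
  · exact ⟨f, _, hf, hz, hf'.trans hC⟩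

theorem caseA [Group.IsSolvable G]
    (hcrit : Set.range (orderOf : G → ℕ) = ({1, 2, 3, 4, 6, 8, 13} : Set ℕ) ∧
      ∀ (H : Subgroup G) (N : Subgroup ↥H) [N.Normal], (H ≠ ⊤ ∨ N ≠ ⊥) →
        Set.range (orderOf : (↥H ⧸ N) → ℕ) ≠ ({1, 2, 3, 4, 6, 8, 13} : Set ℕ)) :
    ∃ (K H : Subgroup G), K.Normal ∧ IsMulCommutative K ∧ (∀ x ∈ K, x ^ 13 = 1) ∧
      Nat.card K = 13 ^ 4 ∧ K ⊓ H = ⊥ ∧ K ⊔ H = ⊤ ∧
      (∀ h ∈ H, h ≠ 1 → ∀ x ∈ K, h * x * h⁻¹ = x → x = 1) ∧
      ∃ (Z : Subgroup ↥H) (_ : Z.Normal), Nat.card Z = 2 ∧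
        (∀ Z' : Subgroup ↥H, Nat.card Z' = 2 → Z' = Z) ∧ Nonempty (↥H ⧸ Z ≃* Equiv.Perm (Fin 4)) := by
  obtain ⟨hω, hmin⟩ := hcrit
  have p13 : Nat.Prime 13 := by norm_num
  haveI : Fact (Nat.Prime 13) := ⟨p13⟩
  have h : Om G := fun g => hω.le ⟨g, rfl⟩
  have hex : ∀ n ∈ ({1, 2, 3, 4, 6, 8, 13} : Set ℕ), ∃ g : G, orderOf g = n := fun n hn => hω.ge hn
  obtain ⟨r, V, hr, hVn, hV1, hVle, ⟨hVc, hVe⟩, hVmin⟩ :=
    Core.exists_elementaryAbelian_minimal_normal_le
      (pCore_ne_bot h (hex 13 (by simp)) (hex 8 (by simp)) (hex 3 (by simp)))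
  have hVp : IsPGroup 13 V := (Core.isPGroup_pCore 13 G).to_le hVle
  have hV13 : ∀ v ∈ V, v ^ 13 = 1 := fun v hv => by
    by_cases e : v = 1
    · rw [e, one_pow]
    · rw [← h.ord13 hVp hv e, pow_orderOf_eq_one]
  obtain ⟨H, hH⟩ := Coprime.exists_isPiHall {13}ᶜ G
  have hHc : (Nat.card H).Coprime 13 :=
    (Coprime.IsPiNum.compl_singleton_iff p13).1 (Coprime.isPiHall_iff.1 hH).1
  have hfpf : ∀ x ∈ H, x ≠ 1 → ∀ v ∈ V, x * v * x⁻¹ = v → v = 1 := fun x hx h1 v hv e => by
    by_contra hv1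
    exact h1 (h.eq_one (h.ord13 hVp hv hv1) (mul_inv_eq_iff_eq_mul.1 e).symm hHc
      (orderOf_dvd_iff_pow_eq_one.1 (Subgroup.orderOf_dvd_natCard _ hx)))
  have hfpf' : ∀ x ∈ H, x ≠ 1 → V ⊓ centralizer {x} = ⊥ := fun x hx h1 =>
    eq_bot_iff.2 fun v hv => hfpf x hx h1 v hv.1
      (mul_inv_eq_iff_eq_mul.2 (mem_centralizer_singleton_iff.1 hv.2).symm)
  have hexH : ∀ n ∈ ({1, 2, 3, 4, 6, 8, 13} : Set ℕ), n ≠ 13 → ∃ g : H, orderOf g = n := by
    intro n hn h13
    obtain ⟨g, hg⟩ := hex n hn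
    obtain ⟨y, hy⟩ := Coprime.exists_le_conj_of_isPiHall hH (U := zpowers g)
      ((Coprime.IsPiNum.compl_singleton_iff p13).2 (by
        rw [Nat.card_zpowers, hg]
        simp only [Set.mem_insert_iff, Set.mem_singleton_iff] at hn
        rcases hn with e | e | e | e | e | e | e <;> first | exact absurd e h13 | (rw [e]; norm_num)))
    refine ⟨⟨_, Frob.mem_conj_smul_iff.1 (hy (mem_zpowers g))⟩, ?_⟩
    rw [← Subgroup.orderOf_coe, ← hg]
    exact SemiconjBy.orderOf_eq y (by simp [SemiconjBy, mul_assoc])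
  have hsup : V ⊔ H = ⊤ := by
    by_contra hne
    refine hmin (V ⊔ H) ⊥ (Or.inl hne) ?_
    have e : ∀ x : ↥(V ⊔ H) ⧸ (⊥ : Subgroup ↥(V ⊔ H)),
        orderOf x = orderOf ((QuotientGroup.quotientBot x : ↥(V ⊔ H)) : G) := fun x => by
      rw [Subgroup.orderOf_coe, MulEquiv.orderOf_eq]
    have e' : ∀ g ∈ V ⊔ H, orderOf g ∈ Set.range
        (orderOf : ↥(V ⊔ H) ⧸ (⊥ : Subgroup ↥(V ⊔ H)) → ℕ) := fun g hg =>
      ⟨QuotientGroup.quotientBot.symm ⟨g, hg⟩, by rw [e, MulEquiv.apply_symm_apply]⟩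
    refine Set.Subset.antisymm ?_ fun n hn => ?_
    · rintro _ ⟨x, rfl⟩
      rw [e]; exact h _
    · by_cases h13 : n = 13
      · obtain ⟨v, hv, hv'⟩ := Core.exists_mem_orderOf_eq_of_isPGroup hVp hV1
        rw [h13, ← hv']
        exact e' v (mem_sup_left hv)
      · obtain ⟨g, hg⟩ := hexH n hn h13
        rw [← hg, ← Subgroup.orderOf_coe]
        exact e' g (mem_sup_right g.2)
  let ρ : H →* MulAut V := MulAut.conjNormal.comp H.subtype
  have hρ : ∀ a : H, a ≠ 1 → ∀ w, ρ a w = w → w = 1 := fun a ha w hw =>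
    Subtype.ext (hfpf a a.2 (fun e => ha (Subtype.ext e)) w w.2 (congrArg Subtype.val hw))
  have hinv : ∀ t : H, orderOf t = 2 → ∀ w, ρ t w = w⁻¹ := fun t ht w => by
    have := Frob.prod_pow_apply_eq_one ρ (hρ t fun e => by simp [e] at ht)
      (ht ▸ pow_orderOf_eq_one t) w
    simp only [Finset.prod_range_succ, Finset.prod_range_zero, pow_zero, map_one, pow_one, one_mul,
      MulAut.one_apply] at this
    exact eq_inv_of_mul_eq_one_right this
  have huniq : ∀ s t : H, orderOf s = 2 → orderOf t = 2 → s = t := fun s t hs ht => by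
    by_contra hne
    obtain ⟨⟨v, hv⟩, hv1⟩ := ne_bot_iff_exists_ne_one.1 hV1
    refine hv1 (hρ (s⁻¹ * t) (fun e => hne (inv_mul_eq_one.1 e)) _ ?_)
    rw [map_mul, MulAut.mul_apply, hinv t ht, ← hinv s hs, ← MulAut.mul_apply, ← map_mul,
      inv_mul_cancel, map_one, MulAut.one_apply]
  obtain ⟨f, z, hf, hz, hk⟩ := compl_struct (h.subgroup H)
    (Frob.pqCond_of_fpf hV1 le_normalizer_of_normal hfpf') (fun g e => by
      have := Nat.eq_one_of_dvd_coprimes hHc (e ▸ _root_.orderOf_dvd_natCard g) dvd_rfl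
      omega) huniq (hexH 8 (by simp) (by norm_num)) (hexH 3 (by simp) (by norm_num))
  have hkc : Nat.card f.ker = 2 := by rw [hk, Nat.card_zpowers, hz]
  have hmem : ∀ x : H, f x = 1 → x = 1 ∨ x = z := fun x hx => by
    have := Subgroup.orderOf_dvd_natCard _ (MonoidHom.mem_ker.2 hx)
    rw [hkc, Nat.dvd_prime Nat.prime_two] at this
    exact this.imp orderOf_eq_one_iff.1 fun e => huniq _ _ e hz
  have hz2 : z * z = 1 := by rw [← pow_two, ← hz, pow_orderOf_eq_one]
  have hzc : ∀ x : H, Commute z x := fun x => by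
    refine (mul_inv_eq_iff_eq_mul.1 (huniq _ _ ?_ hz)).symm
    rw [← hz]; exact (SemiconjBy.orderOf_eq x (by simp [SemiconjBy])).symm
  have hfz : f z = 1 := MonoidHom.mem_ker.1 (hk ▸ mem_zpowers z)
  have hsq : ∀ x : H, f x ≠ 1 → f x * f x = 1 → x * x = z := fun x h1 h2 => by
    refine (hmem _ (by rw [map_mul, h2])).resolve_left fun e => h1 ?_
    by_cases e' : x = 1
    · rw [e', map_one]
    · rw [huniq x z (orderOf_eq_prime (by rw [pow_two, e]) e') hz, hfz]
  obtain ⟨a, ha⟩ := hf (finRotate 4)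
  obtain ⟨b, hb, hab⟩ : ∃ b, f b = Equiv.swap 0 1 ∧ (a * b) ^ 3 = 1 := by
    obtain ⟨b, hb⟩ := hf (Equiv.swap 0 1)
    rcases hmem ((a * b) ^ 3) (by rw [map_pow, map_mul, ha, hb]; decide) with e | e
    · exact ⟨b, hb, e⟩
    · refine ⟨b * z, by rw [map_mul, hb, hfz, mul_one], ?_⟩
      rw [← mul_assoc, (hzc _).symm.mul_pow, e, pow_three, hz2, mul_one, hz2]
  have ha4 : a * a * (a * a) = z :=
    hsq _ (by rw [map_mul, ha]; decide) (by rw [map_mul, ha]; decide)
  have hb2 : b * b = z := hsq _ (by rw [hb]; decide) (by rw [hb]; decide)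
  have hcard : Nat.card V ∣ 13 ^ 4 := by
    refine card_dvd_of_irr (fun w => Subtype.ext (hV13 w w.2)) (ρ a) (ρ b) (fun w => ?_)
      (fun w => ?_) (fun w => ?_) (fun U hUa hUb => ?_)
    · rw [← hinv z hz, ← ha4]; simp only [map_mul, MulAut.mul_apply]
    · rw [← hinv z hz, ← hb2]; simp only [map_mul, MulAut.mul_apply]
    · have := Frob.prod_pow_apply_eq_one ρ (hρ (a * b) fun e => by
        have := congrArg f e
        rw [map_mul, ha, hb, map_one] at this
        exact absurd this (by decide)) hab w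
      simpa only [Finset.prod_range_succ, Finset.prod_range_zero, pow_zero, map_one, pow_one,
        one_mul, MulAut.one_apply, pow_two, map_mul, MulAut.mul_apply] using this
    · let T : Subgroup H := (normalizer ((U.map V.subtype : Subgroup G) : Set G)).subgroupOf H
      have hT : ∀ x : H, (∀ w ∈ U, ρ x w ∈ U) → x ∈ T := fun x hx => by
        apply mem_normalizer_fintype
        rintro _ ⟨w, hw, rfl⟩
        exact ⟨_, hx w hw, rfl⟩
      have hTa := hT a hUa
      have hTb := hT b hUb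
      have hTt : T = ⊤ := by
        have e1 : T.map f = ⊤ := by
          rw [eq_top_iff, ← Equiv.Perm.closure_cycle_adjacent_swap (isCycle_finRotate (n := 2))
            (support_finRotate (n := 2)) 0, closure_le]
          rintro _ (rfl | rfl)
          · exact ⟨a, hTa, ha⟩
          · exact ⟨b, hTb, hb⟩
        have := comap_map_eq f T
        rw [e1, comap_top, hk, sup_eq_left.2 (zpowers_le.2 (hb2 ▸ mul_mem hTb hTb))] at this
        exact this.symm
      have hn : (U.map V.subtype).Normal := by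
        rw [← normalizer_eq_top_iff, eq_top_iff, ← hsup]
        refine sup_le (fun v hv => ?_) fun x hx => hTt.ge (mem_top (⟨x, hx⟩ : H))
        apply mem_normalizer_fintype
        rintro _ ⟨w, hw, rfl⟩
        refine ⟨w, hw, (mul_inv_eq_iff_eq_mul.2 ?_).symm⟩
        exact congrArg Subtype.val (mul_comm (⟨v, hv⟩ : V) w)
      refine (hVmin _ hn (map_subtype_le U)).imp (fun e => ?_) fun e => ?_
      · exact (map_eq_bot_iff_of_injective _ V.subtype_injective).1 e
      · exact map_injective V.subtype_injective (by rw [e, ← MonoidHom.range_eq_map, range_subtype])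
  have hH48 : Nat.card H = 48 := by
    rw [← f.ker.card_mul_index, hkc, index_ker, MonoidHom.range_eq_top.2 hf, card_top,
      Nat.card_perm]
    simp [Nat.factorial]
  have hmod := Frob.card_modEq_one_of_fpf le_normalizer_of_normal hfpf'
  refine ⟨V, H, hVn, hVc, hV13, ?_, ?_, hsup, hfpf, f.ker, inferInstance, hkc, fun Z' hZ' => ?_,
    ⟨QuotientGroup.quotientKerEquivOfSurjective f hf⟩⟩
  · obtain ⟨i, hi, e⟩ := (Nat.dvd_prime_pow p13).1 hcard
    have h1 : Nat.card V ≠ 1 := fun e => hV1 (card_eq_one.1 e)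
    rw [hH48, e] at hmod
    rw [e] at h1 ⊢
    interval_cases i <;> first | rfl | exact absurd rfl h1 | exact absurd hmod (by decide)
  · obtain ⟨k, hk⟩ := IsPGroup.iff_card.1 hVp
    exact inf_eq_bot_of_coprime (by rw [hk]; exact (hHc.pow_right k).symm)
  · obtain ⟨t, ht, ht'⟩ := Core.exists_mem_orderOf_eq_of_dvd_card Nat.prime_two hZ'.symm.dvd
    rw [hk, ← huniq _ _ ht' hz]
    exact (eq_of_le_of_card_ge (zpowers_le.2 ht) (by rw [hZ', Nat.card_zpowers, ht'])).symm

end CfsgLib.Crit13
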